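import Cfsg.Agent.Lib.Helper17.CentGen
import Cfsg.Agent.Lib.Helper17.E6I.Defs
import Cfsg.Agent.Lib.Helper36.ChevSyl

/-!
# Involutions of `E₆(2^a)`: definitions (helper17)
-/

set_option autoImplicit false

namespace Cfsg.Agent.Lib.Helper17.E6I

open Cfsg.Lie Cfsg.Agent.Lib.Helper18 Cfsg.Agent.Lib.Helper17 Cfsg.Agent.Lib.Helper36
  Cfsg.Agent.Lib.Helper6 Matrix

variable {F : Type*} [Field F] (hB : Base chevE6 F)

/-- the sum of two positive roots -/
def e6add (r s : ℕ) : Option ℕ :=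
  if 36 ≤ r ∧ r < 72 ∧ 36 ≤ s ∧ s < 72 then ((chevE6.commTerms r s).head?).map (·.1) else none

/-- orthogonality -/
def e6orth (r s : ℕ) : Prop := chevE6.pairing r s = 0

def y1 : GL chevE6.Idx F := hB.xg 71 1
def y2 : GL chevE6.Idx F := hB.xg 68 1 * hB.xg 66 1
def y3 : GL chevE6.Idx F := hB.xg 55 1 * hB.xg 65 1 * hB.xg 67 1

/-- conjugate to one of the three representatives -/
def Good (g : GL chevE6.Idx F) : Prop :=
  ∃ h ∈ chevE6.group F, h * g * h⁻¹ = y1 hB ∨ h * g * h⁻¹ = y2 hB ∨ h * g * h⁻¹ = y3 hB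

/-- the roots of height at least 7 -/
def S7 : List ℕ := [55, 65, 66, 67, 68, 69, 70, 71]

end Cfsg.Agent.Lib.Helper17.E6I
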