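import Cfsg.Agent.Lib.Helper8.E6I.E1

set_option autoImplicit false
set_option linter.unusedSimpArgs false

/-! Piece E9 of the farm E6I (helper17) for S2175: the fusion 4A1 -> 3A1. -/

namespace Cfsg.Agent.Lib.Helper17.E6I

open Cfsg.Lie Cfsg.Agent.Lib.Helper18 Cfsg.Agent.Lib.Helper17 Cfsg.Agent.Lib.Helper36
  Cfsg.Agent.Lib.Helper6 Matrix Cfsg.Agent.Lib.Helper8.E6I

variable {F : Type*} [Field F] (hB : Base chevE6 F)

set_option maxHeartbeats 1000000 in
/-- [E9] -/
theorem fusion [CharP F 2] : ∃ g ∈ chevE6.group F,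
    g * CG.lp hB [42, 53, 37, 46] (fun _ => 1) * g⁻¹ = CG.lp hB [42, 46, 37] (fun _ => 1) := by
  obtain ⟨x, hx⟩ : ∃ x : ℕ → GL chevE6.Idx F, x = fun k => hB.xg k 1 := ⟨_, rfl⟩
  have sw0 : ∀ r s : ℕ, 36 ≤ r → r < 72 → 36 ≤ s → s < 72 → e6add r s = none →
      ∀ z, x r * (x s * z) = x s * (x r * z) := by
    intro r s h1 h2 h3 h4 h z
    rw [hx, ← mul_assoc, ← mul_assoc]
    beta_reduce
    rw [e6_comm_none hB r s h1 h2 h3 h4 h 1 1]
  have sw1 : ∀ r s k : ℕ, 36 ≤ r → r < 72 → 36 ≤ s → s < 72 → e6add r s = some k →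
      ∀ z, x r * (x s * z) = x s * (x k * (x r * z)) := by
    intro r s k h1 h2 h3 h4 h z
    have := e6_conj_some hB r s k h1 h2 h3 h4 h 1 1
    rw [mul_one] at this
    rw [hx]
    beta_reduce
    calc hB.xg r 1 * (hB.xg s 1 * z) = (hB.xg r 1 * hB.xg s 1 * (hB.xg r 1)⁻¹) * (hB.xg r 1 * z) := by group
      _ = _ := by rw [this]; group
  have sq : ∀ r z, x r * (x r * z) = z := by
    intro r z
    rw [hx, ← mul_assoc]
    beta_reduce
    rw [hB.xg_add, CharTwo.add_self_eq_zero, hB.xg_zero, one_mul]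
  have w40_37 : ∀ z, x 40 * (x 37 * z) = x 37 * (x 40 * z) := sw0 40 37 (by norm_num) (by norm_num) (by norm_num) (by norm_num) (by decide +kernel)
  have w42_37 : ∀ z, x 42 * (x 37 * z) = x 37 * (x 42 * z) := sw0 42 37 (by norm_num) (by norm_num) (by norm_num) (by norm_num) (by decide +kernel)
  have w42_40 : ∀ z, x 42 * (x 40 * z) = x 40 * (x 44 * (x 42 * z)) := sw1 42 40 44 (by norm_num) (by norm_num) (by norm_num) (by norm_num) (by decide +kernel)
  have w43_37 : ∀ z, x 43 * (x 37 * z) = x 37 * (x 44 * (x 43 * z)) := sw1 43 37 44 (by norm_num) (by norm_num) (by norm_num) (by norm_num) (by decide +kernel)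
  have w43_40 : ∀ z, x 43 * (x 40 * z) = x 40 * (x 43 * z) := sw0 43 40 (by norm_num) (by norm_num) (by norm_num) (by norm_num) (by decide +kernel)
  have w43_42 : ∀ z, x 43 * (x 42 * z) = x 42 * (x 43 * z) := sw0 43 42 (by norm_num) (by norm_num) (by norm_num) (by norm_num) (by decide +kernel)
  have w44_37 : ∀ z, x 44 * (x 37 * z) = x 37 * (x 44 * z) := sw0 44 37 (by norm_num) (by norm_num) (by norm_num) (by norm_num) (by decide +kernel)
  have w44_40 : ∀ z, x 44 * (x 40 * z) = x 40 * (x 44 * z) := sw0 44 40 (by norm_num) (by norm_num) (by norm_num) (by norm_num) (by decide +kernel)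
  have w44_42 : ∀ z, x 44 * (x 42 * z) = x 42 * (x 44 * z) := sw0 44 42 (by norm_num) (by norm_num) (by norm_num) (by norm_num) (by decide +kernel)
  have w44_43 : ∀ z, x 44 * (x 43 * z) = x 43 * (x 44 * z) := sw0 44 43 (by norm_num) (by norm_num) (by norm_num) (by norm_num) (by decide +kernel)
  have w46_37 : ∀ z, x 46 * (x 37 * z) = x 37 * (x 46 * z) := sw0 46 37 (by norm_num) (by norm_num) (by norm_num) (by norm_num) (by decide +kernel)
  have w46_40 : ∀ z, x 46 * (x 40 * z) = x 40 * (x 48 * (x 46 * z)) := sw1 46 40 48 (by norm_num) (by norm_num) (by norm_num) (by norm_num) (by decide +kernel)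
  have w46_42 : ∀ z, x 46 * (x 42 * z) = x 42 * (x 46 * z) := sw0 46 42 (by norm_num) (by norm_num) (by norm_num) (by norm_num) (by decide +kernel)
  have w46_43 : ∀ z, x 46 * (x 43 * z) = x 43 * (x 50 * (x 46 * z)) := sw1 46 43 50 (by norm_num) (by norm_num) (by norm_num) (by norm_num) (by decide +kernel)
  have w46_44 : ∀ z, x 46 * (x 44 * z) = x 44 * (x 51 * (x 46 * z)) := sw1 46 44 51 (by norm_num) (by norm_num) (by norm_num) (by norm_num) (by decide +kernel)
  have w47_37 : ∀ z, x 47 * (x 37 * z) = x 37 * (x 48 * (x 47 * z)) := sw1 47 37 48 (by norm_num) (by norm_num) (by norm_num) (by norm_num) (by decide +kernel)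
  have w47_40 : ∀ z, x 47 * (x 40 * z) = x 40 * (x 47 * z) := sw0 47 40 (by norm_num) (by norm_num) (by norm_num) (by norm_num) (by decide +kernel)
  have w47_42 : ∀ z, x 47 * (x 42 * z) = x 42 * (x 50 * (x 47 * z)) := sw1 47 42 50 (by norm_num) (by norm_num) (by norm_num) (by norm_num) (by decide +kernel)
  have w47_43 : ∀ z, x 47 * (x 43 * z) = x 43 * (x 47 * z) := sw0 47 43 (by norm_num) (by norm_num) (by norm_num) (by norm_num) (by decide +kernel)
  have w47_44 : ∀ z, x 47 * (x 44 * z) = x 44 * (x 53 * (x 47 * z)) := sw1 47 44 53 (by norm_num) (by norm_num) (by norm_num) (by norm_num) (by decide +kernel)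
  have w47_46 : ∀ z, x 47 * (x 46 * z) = x 46 * (x 47 * z) := sw0 47 46 (by norm_num) (by norm_num) (by norm_num) (by norm_num) (by decide +kernel)
  have w48_37 : ∀ z, x 48 * (x 37 * z) = x 37 * (x 48 * z) := sw0 48 37 (by norm_num) (by norm_num) (by norm_num) (by norm_num) (by decide +kernel)
  have w48_40 : ∀ z, x 48 * (x 40 * z) = x 40 * (x 48 * z) := sw0 48 40 (by norm_num) (by norm_num) (by norm_num) (by norm_num) (by decide +kernel)
  have w48_42 : ∀ z, x 48 * (x 42 * z) = x 42 * (x 51 * (x 48 * z)) := sw1 48 42 51 (by norm_num) (by norm_num) (by norm_num) (by norm_num) (by decide +kernel)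
  have w48_43 : ∀ z, x 48 * (x 43 * z) = x 43 * (x 53 * (x 48 * z)) := sw1 48 43 53 (by norm_num) (by norm_num) (by norm_num) (by norm_num) (by decide +kernel)
  have w48_44 : ∀ z, x 48 * (x 44 * z) = x 44 * (x 48 * z) := sw0 48 44 (by norm_num) (by norm_num) (by norm_num) (by norm_num) (by decide +kernel)
  have w48_46 : ∀ z, x 48 * (x 46 * z) = x 46 * (x 48 * z) := sw0 48 46 (by norm_num) (by norm_num) (by norm_num) (by norm_num) (by decide +kernel)
  have w48_47 : ∀ z, x 48 * (x 47 * z) = x 47 * (x 48 * z) := sw0 48 47 (by norm_num) (by norm_num) (by norm_num) (by norm_num) (by decide +kernel)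
  have w50_37 : ∀ z, x 50 * (x 37 * z) = x 37 * (x 51 * (x 50 * z)) := sw1 50 37 51 (by norm_num) (by norm_num) (by norm_num) (by norm_num) (by decide +kernel)
  have w50_40 : ∀ z, x 50 * (x 40 * z) = x 40 * (x 53 * (x 50 * z)) := sw1 50 40 53 (by norm_num) (by norm_num) (by norm_num) (by norm_num) (by decide +kernel)
  have w50_42 : ∀ z, x 50 * (x 42 * z) = x 42 * (x 50 * z) := sw0 50 42 (by norm_num) (by norm_num) (by norm_num) (by norm_num) (by decide +kernel)
  have w50_43 : ∀ z, x 50 * (x 43 * z) = x 43 * (x 50 * z) := sw0 50 43 (by norm_num) (by norm_num) (by norm_num) (by norm_num) (by decide +kernel)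
  have w50_44 : ∀ z, x 50 * (x 44 * z) = x 44 * (x 50 * z) := sw0 50 44 (by norm_num) (by norm_num) (by norm_num) (by norm_num) (by decide +kernel)
  have w50_46 : ∀ z, x 50 * (x 46 * z) = x 46 * (x 50 * z) := sw0 50 46 (by norm_num) (by norm_num) (by norm_num) (by norm_num) (by decide +kernel)
  have w50_47 : ∀ z, x 50 * (x 47 * z) = x 47 * (x 50 * z) := sw0 50 47 (by norm_num) (by norm_num) (by norm_num) (by norm_num) (by decide +kernel)
  have w50_48 : ∀ z, x 50 * (x 48 * z) = x 48 * (x 50 * z) := sw0 50 48 (by norm_num) (by norm_num) (by norm_num) (by norm_num) (by decide +kernel)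
  have w51_37 : ∀ z, x 51 * (x 37 * z) = x 37 * (x 51 * z) := sw0 51 37 (by norm_num) (by norm_num) (by norm_num) (by norm_num) (by decide +kernel)
  have w51_40 : ∀ z, x 51 * (x 40 * z) = x 40 * (x 51 * z) := sw0 51 40 (by norm_num) (by norm_num) (by norm_num) (by norm_num) (by decide +kernel)
  have w51_42 : ∀ z, x 51 * (x 42 * z) = x 42 * (x 51 * z) := sw0 51 42 (by norm_num) (by norm_num) (by norm_num) (by norm_num) (by decide +kernel)
  have w51_43 : ∀ z, x 51 * (x 43 * z) = x 43 * (x 51 * z) := sw0 51 43 (by norm_num) (by norm_num) (by norm_num) (by norm_num) (by decide +kernel)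
  have w51_44 : ∀ z, x 51 * (x 44 * z) = x 44 * (x 51 * z) := sw0 51 44 (by norm_num) (by norm_num) (by norm_num) (by norm_num) (by decide +kernel)
  have w51_46 : ∀ z, x 51 * (x 46 * z) = x 46 * (x 51 * z) := sw0 51 46 (by norm_num) (by norm_num) (by norm_num) (by norm_num) (by decide +kernel)
  have w51_47 : ∀ z, x 51 * (x 47 * z) = x 47 * (x 51 * z) := sw0 51 47 (by norm_num) (by norm_num) (by norm_num) (by norm_num) (by decide +kernel)
  have w51_48 : ∀ z, x 51 * (x 48 * z) = x 48 * (x 51 * z) := sw0 51 48 (by norm_num) (by norm_num) (by norm_num) (by norm_num) (by decide +kernel)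
  have w51_50 : ∀ z, x 51 * (x 50 * z) = x 50 * (x 51 * z) := sw0 51 50 (by norm_num) (by norm_num) (by norm_num) (by norm_num) (by decide +kernel)
  have w53_37 : ∀ z, x 53 * (x 37 * z) = x 37 * (x 53 * z) := sw0 53 37 (by norm_num) (by norm_num) (by norm_num) (by norm_num) (by decide +kernel)
  have w53_40 : ∀ z, x 53 * (x 40 * z) = x 40 * (x 53 * z) := sw0 53 40 (by norm_num) (by norm_num) (by norm_num) (by norm_num) (by decide +kernel)
  have w53_42 : ∀ z, x 53 * (x 42 * z) = x 42 * (x 53 * z) := sw0 53 42 (by norm_num) (by norm_num) (by norm_num) (by norm_num) (by decide +kernel)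
  have w53_43 : ∀ z, x 53 * (x 43 * z) = x 43 * (x 53 * z) := sw0 53 43 (by norm_num) (by norm_num) (by norm_num) (by norm_num) (by decide +kernel)
  have w53_44 : ∀ z, x 53 * (x 44 * z) = x 44 * (x 53 * z) := sw0 53 44 (by norm_num) (by norm_num) (by norm_num) (by norm_num) (by decide +kernel)
  have w53_46 : ∀ z, x 53 * (x 46 * z) = x 46 * (x 53 * z) := sw0 53 46 (by norm_num) (by norm_num) (by norm_num) (by norm_num) (by decide +kernel)
  have w53_47 : ∀ z, x 53 * (x 47 * z) = x 47 * (x 53 * z) := sw0 53 47 (by norm_num) (by norm_num) (by norm_num) (by norm_num) (by decide +kernel)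
  have w53_48 : ∀ z, x 53 * (x 48 * z) = x 48 * (x 53 * z) := sw0 53 48 (by norm_num) (by norm_num) (by norm_num) (by norm_num) (by decide +kernel)
  have w53_50 : ∀ z, x 53 * (x 50 * z) = x 50 * (x 53 * z) := sw0 53 50 (by norm_num) (by norm_num) (by norm_num) (by norm_num) (by decide +kernel)
  have w53_51 : ∀ z, x 53 * (x 51 * z) = x 51 * (x 53 * z) := sw0 53 51 (by norm_num) (by norm_num) (by norm_num) (by norm_num) (by decide +kernel)
  refine ⟨x 40 * x 47 * x 50 * x 43, ?_, ?_⟩
  · rw [hx]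
    exact mul_mem (mul_mem (mul_mem (hB.xg_mem_group (by decide +kernel) 1) (hB.xg_mem_group (by decide +kernel) 1))
      (hB.xg_mem_group (by decide +kernel) 1)) (hB.xg_mem_group (by decide +kernel) 1)
  · have e1 : CG.lp hB [42, 53, 37, 46] (fun _ => (1 : F)) = x 42 * (x 53 * (x 37 * (x 46 * 1))) := by
      rw [hx]; simp [CG.lp]
    have e2 : CG.lp hB [42, 46, 37] (fun _ => (1 : F)) = x 42 * (x 46 * (x 37 * 1)) := by
      rw [hx]; simp [CG.lp]
    rw [e1, e2, mul_inv_eq_iff_eq_mul]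
    have l : x 40 * x 47 * x 50 * x 43 * (x 42 * (x 53 * (x 37 * (x 46 * 1)))) =
        x 40 * (x 47 * (x 50 * (x 43 * (x 42 * (x 53 * (x 37 * (x 46 * 1))))))) := by
      simp only [mul_assoc]
    have r : x 42 * (x 46 * (x 37 * 1)) * (x 40 * x 47 * x 50 * x 43) =
        x 42 * (x 46 * (x 37 * (x 40 * (x 47 * (x 50 * (x 43 * 1)))))) := by
      simp only [mul_assoc, mul_one, one_mul]
    rw [l, r]
    simp only [sq, w40_37, w42_37, w42_40, w43_37, w43_40, w43_42, w44_37, w44_40, w44_42, w44_43, w46_37, w46_40, w46_42, w46_43, w46_44, w47_37, w47_40, w47_42, w47_43, w47_44, w47_46, w48_37, w48_40, w48_42, w48_43, w48_44, w48_46, w48_47, w50_37, w50_40, w50_42, w50_43, w50_44, w50_46, w50_47, w50_48, w51_37, w51_40, w51_42, w51_43, w51_44, w51_46, w51_47, w51_48, w51_50, w53_37, w53_40, w53_42, w53_43, w53_44, w53_46, w53_47, w53_48, w53_50, w53_51]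

end Cfsg.Agent.Lib.Helper17.E6I
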