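import Cfsg.Agent.Lib.Helper17.E6I.Main
import Cfsg.Agent.Lib.Helper17.E6I.E9
import Cfsg.Agent.Lib.Helper8.E6I.E1
import Cfsg.Agent.Lib.Helper8.E6I.E2
import Cfsg.Agent.Lib.Helper8.E6I.E3
import Cfsg.Agent.Lib.Helper8.E6I.E4
import Cfsg.Agent.Lib.Helper63.E6I.E5
import Cfsg.Agent.Lib.Helper63.E6I.E6
import Cfsg.Agent.Lib.Helper74.E6I.E7
import Cfsg.Agent.Lib.Helper74.E6I.E10
import Cfsg.Agent.Lib.Helper84.E6I.E11
import Cfsg.Agent.Lib.Helper84.E6I.N3
import Cfsg.Agent.Lib.Helper88.E6I.E8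

set_option autoImplicit false

/-! # involutions of `E₆(2^a)`: assembly (helper17) -/

namespace Cfsg.Agent.Lib.Helper17.E6I

open Cfsg.Lie Cfsg.Agent.Lib.Helper18 Cfsg.Agent.Lib.Helper17 Cfsg.Agent.Lib.Helper36
  Cfsg.Agent.Lib.Helper6 Matrix

variable {F : Type*} [Field F] (hB : Base chevE6 F)

/-- the instance -/
def e6RS [CharP F 2] : RS (GL chevE6.Idx F) F where
  lo := 36
  n := 72
  x := hB.xg
  add := e6add
  orth := e6orth
  x_add r t u := hB.xg_add r t u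
  comm_none r s h1 h2 h3 h4 h t u := Helper8.E6I.e6_comm_none hB r s h1 h2 h3 h4 h t u
  conj_some r s k h1 h2 h3 h4 h t u := Helper8.E6I.e6_conj_some hB r s k h1 h2 h3 h4 h t u
  add_lt := Helper8.E6I.e6_add_lt
  add_symm := Helper8.E6I.e6_add_symm
  add_mono := Helper8.E6I.e6_add_mono
  inj c c' h r h0 h1 := Helper8.E6I.e6_inj hB c c' h r h0 h1
  tri := Helper8.E6I.e6_tri
  orth_none := Helper8.E6I.e6_orth_none
  orth_add := Helper8.E6I.e6_orth_add
  orth_sub := Helper8.E6I.e6_orth_sub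
  good_add := Helper8.E6I.e6_good_add

theorem Good.of_eq {g g' h : GL chevE6.Idx F} (hh : h ∈ chevE6.group F) (e : h * g * h⁻¹ = g')
    (H : Good hB g') : Good hB g := by
  obtain ⟨k, hk, e'⟩ := H
  refine ⟨k * h, mul_mem hk hh, ?_⟩
  rw [CG.conj_mul', e]
  exact e'

theorem e6add_bd {a d k : ℕ} (h : e6add a d = some k) : 36 ≤ a ∧ a < 72 ∧ 36 ≤ d ∧ d < 72 := by
  unfold e6add at h
  by_contra hcon
  rw [if_neg hcon] at h
  exact absurd h (by simp)

theorem closed_all [CharP F 2] : Closed (e6RS hB) (fun r => 36 ≤ r ∧ r < 72) where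
  bd r hr := hr
  add a b k ha hb hk := by
    have := Helper8.E6I.e6_add_lt a b k hk
    exact ⟨by omega, this.2.2⟩
  sub a d k ha hk hd := by
    have := e6add_bd hd
    exact ⟨this.2.2.1, this.2.2.2⟩

theorem U_le_V [CharP F 2] : chevE6.posUnipotent F ≤ V (e6RS hB) (fun r => 36 ≤ r ∧ r < 72) 36 := by
  rw [hB.posUnipotent_eq, Subgroup.closure_le]
  rintro _ ⟨r, t, hr, rfl⟩
  apply Subgroup.subset_closure
  have h1 : r < 72 := hr.1
  have h2 : 36 ≤ r := by
    have key : ∀ r : Fin 72, chevE6.IsPosRoot r → 36 ≤ r.val := by decide +kernel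
    exact key ⟨r, h1⟩ hr
  exact ⟨r, t, ⟨h2, h1⟩, h2, rfl⟩

theorem V_le_group [CharP F 2] (k : ℕ) : V (e6RS hB) (fun r => 36 ≤ r ∧ r < 72) k ≤ chevE6.group F := by
  rw [V, Subgroup.closure_le]
  rintro _ ⟨r, t, hr, -, rfl⟩
  exact hB.xg_mem_group hr.2 t

/-- orthogonal products with coefficients 1 are good -/
theorem good_orth [CharP F 2] (O : List ℕ) (hO : O.Pairwise e6orth) (hb : ∀ o ∈ O, o < 72) (hne : O ≠ []) :
    Good hB (CG.lp hB O (fun _ => 1)) := by
  have base : ∀ O : List ℕ, O.Pairwise e6orth → (∀ o ∈ O, o < 72) → O ≠ [] →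
      Good hB (CG.lp hB O (fun _ => 1)) ∨ (O.length = 4 ∧ ∃ h ∈ chevE6.group F,
        h * CG.lp hB O (fun _ => 1) * h⁻¹ = CG.lp hB [42, 53, 37, 46] (fun _ => 1)) := by
    intro O hO hb hne
    obtain ⟨L, hL, hcase⟩ := Helper88.E6I.cascade O hO hb hne
    obtain ⟨hm, he⟩ := Helper63.E6I.weyl_move hB L hL O hb
    have hT := (tabs2_of_mem (D := chevE6) (by simp)).tab
    have hb' : ∀ o ∈ O.map (wAct chevE6 L), o < 72 := by
      intro o ho
      obtain ⟨o', ho', rfl⟩ := List.mem_map.mp ho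
      exact hT.wAct_lt hL (hb o' ho')
    have hP : ∀ O' : List ℕ, (O.map (wAct chevE6 L)).Perm O' → O'.Pairwise e6orth →
        CG.lp hB (O.map (wAct chevE6 L)) (fun _ => (1 : F)) = CG.lp hB O' (fun _ => 1) := by
      intro O' hp hO'
      exact (Helper74.E6I.lp_perm hB O' _ hO' (fun o ho => hb' o (hp.symm.subset ho)) hp.symm).symm
    rcases hcase with hp | hp | hp | hp
    · left
      refine ⟨hB.nW L, hm, Or.inl ?_⟩
      rw [he, hP _ hp (by simp)]
      simp [CG.lp, y1]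
    · left
      refine ⟨hB.nW L, hm, Or.inr (Or.inl ?_)⟩
      rw [he, hP _ hp (by unfold e6orth; decide +kernel)]
      simp [CG.lp, y2]
    · left
      refine ⟨hB.nW L, hm, Or.inr (Or.inr ?_)⟩
      rw [he, hP _ hp (by unfold e6orth; decide +kernel)]
      simp [CG.lp, y3, mul_assoc]
    · right
      refine ⟨by simpa using hp.length_eq, hB.nW L, hm, ?_⟩
      rw [he, hP _ hp (by unfold e6orth; decide +kernel)]
  rcases base O hO hb hne with h | ⟨-, h, hh, e⟩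
  · exact h
  · refine Good.of_eq hB hh e ?_
    obtain ⟨g, hg, e2⟩ := fusion hB
    refine Good.of_eq hB hg e2 ?_
    rcases base [42, 46, 37] (by unfold e6orth; decide +kernel) (by simp) (by simp) with h | ⟨h, -⟩
    · exact h
    · simp at h

/-- every involution of `U` is good -/
theorem good_of_U [Finite F] [CharP F 2] {u : GL chevE6.Idx F} (hu : u ∈ chevE6.posUnipotent F)
    (h1 : u * u = 1) (hne : u ≠ 1) : Good hB u := by
  obtain ⟨g, hg, O, c, hO1, hO2, e⟩ := main (e6RS hB) 36 36 (by simp [e6RS]) _ (closed_all hB) u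
    (U_le_V hB hu) h1
  have e' : g * u * g⁻¹ = CG.lp hB O c := e
  refine Good.of_eq hB (V_le_group hB _ hg) e' ?_
  have hb : ∀ o ∈ O, o < 72 := fun o ho => (hO1 o ho).1.2
  obtain ⟨h, hh, e2⟩ := Helper63.E6I.torus hB O hO2 hb c (fun o ho => (hO1 o ho).2.2)
  refine Good.of_eq hB hh e2 ?_
  apply good_orth hB O hO2 hb
  rintro rfl
  apply hne
  have : g * u * g⁻¹ = 1 := by rw [e']; simp
  exact CG.conj_eq_one' this

theorem y_props' [CharP F 2] : (y1 hB ∈ chevE6.group F ∧ orderOf (y1 hB) = 2) ∧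
    (y2 hB ∈ chevE6.group F ∧ orderOf (y2 hB) = 2) ∧ (y3 hB ∈ chevE6.group F ∧ orderOf (y3 hB) = 2) :=
  Helper84.E6I.y_props hB

theorem conj_into_U' [Fintype F] [CharP F 2] {g : GL chevE6.Idx F} (hg : g ∈ chevE6.group F)
    (ho : orderOf g = 2) : ∃ h ∈ chevE6.group F, h * g * h⁻¹ ∈ chevE6.posUnipotent F :=
  Helper74.E6I.conj_into_U hg ho

theorem not_conj12' [CharP F 2] {h : GL chevE6.Idx F} (hh : h ∈ chevE6.group F)
    (e : h * y1 hB * h⁻¹ = y2 hB) : False := Helper84.E6I.not_conj12 hB hh e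
theorem not_conj13' [CharP F 2] {h : GL chevE6.Idx F} (hh : h ∈ chevE6.group F)
    (e : h * y1 hB * h⁻¹ = y3 hB) : False := Helper84.E6I.not_conj13 hB hh e
theorem not_conj23' [CharP F 2] {h : GL chevE6.Idx F} (hh : h ∈ chevE6.group F)
    (e : h * y2 hB * h⁻¹ = y3 hB) : False := Helper84.E6I.not_conj23 hB hh e

end Cfsg.Agent.Lib.Helper17.E6I
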